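import Mathlib
import Cfsg.Agent.Lib.Coprime.InvSylow

/-!
# Coprime elements centralizing the centralizer of an involution

`A` is a finite group, `G ⊴ A`, `σ ∈ A` has prime order `r ∤ |G|`, and `τ ∈ G` is an involution such
that `σ` centralizes `C_G(τ)`.

Then every `G`-conjugate of `τ` commutes with exactly one `G`-conjugate of `σ`; the conjugates of `σ`
form a set `Σ` of odd size on which the class of `τ` acts, and a tight count shows that two conjugates
of `τ` with the same fixed point act identically on `Σ`.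
-/

set_option autoImplicit false

open Pointwise

namespace Cfsg.Agent.Lib.CoprimeCent

variable {A : Type*} [Group A]

/-- The standing hypotheses. -/
structure Setup (G : Subgroup A) (r : ℕ) (σ τ : A) : Prop where
  normal : G.Normal
  prime : r.Prime
  pow : σ ^ r = 1
  ne : σ ≠ 1
  ndvd : ¬ r ∣ Nat.card G
  mem : τ ∈ G
  ord : orderOf τ = 2
  fix : ∀ c ∈ G, Commute c τ → Commute c σ

variable {G : Subgroup A} {r : ℕ} {σ τ : A}

theorem comm_conj {a b : A} (h : Commute a b) : b * a * b⁻¹ = a := by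
  rw [← h.eq]; group

theorem comm_conj' {a b : A} (h : Commute a b) : b⁻¹ * a * b = a := by
  rw [mul_assoc, h.eq]; group

theorem Setup.conj (h : Setup G r σ τ) {g : A} (hg : g ∈ G) :
    Setup G r (g * σ * g⁻¹) (g * τ * g⁻¹) := by
  have := h.normal
  refine ⟨h.normal, h.prime, ?_, ?_, h.ndvd, h.normal.conj_mem _ h.mem _, ?_, ?_⟩
  · rw [conj_pow, h.pow]; simp
  · intro he
    apply h.ne
    have : σ = g⁻¹ * (g * σ * g⁻¹) * g := by group
    rw [this, he]; group
  · rw [← h.ord]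
    have := orderOf_injective (MulAut.conj g).toMonoidHom (MulAut.conj g).injective τ
    simpa [MulAut.conj_apply] using this
  · intro c hc hcomm
    have hc' : g⁻¹ * c * g ∈ G := by
      have := h.normal.conj_mem c hc g⁻¹
      simpa using this
    have h1 : Commute (g⁻¹ * c * g) τ := by
      have e := hcomm.eq
      unfold Commute SemiconjBy
      have : g⁻¹ * c * g * τ = g⁻¹ * (c * (g * τ * g⁻¹)) * g := by group
      rw [this, e]; group
    have h2 := (h.fix _ hc' h1).eq
    unfold Commute SemiconjBy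
    have : c * (g * σ * g⁻¹) = g * (g⁻¹ * c * g * σ) * g⁻¹ := by group
    rw [this, h2]; group

/-- The element `c` in `σ g σ⁻¹ = g c` is trivial if it commutes with `σ`. -/
theorem Setup.eq_one_of_cocycle [Finite A] (h : Setup G r σ τ) {g c : A} (hc : c ∈ G)
    (hcs : Commute c σ) (he : σ * g * σ⁻¹ = g * c) : c = 1 := by
  have key : ∀ k : ℕ, σ ^ k * g * (σ ^ k)⁻¹ = g * c ^ k := by
    intro k
    induction k with
    | zero => simp
    | succ k ih =>
      have hk : Commute c (σ ^ k) := hcs.pow_right k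
      have hk1 : σ * c ^ k * σ⁻¹ = c ^ k := comm_conj (hcs.pow_left k)
      calc σ ^ (k + 1) * g * (σ ^ (k + 1))⁻¹ = σ * (σ ^ k * g * (σ ^ k)⁻¹) * σ⁻¹ := by
            rw [pow_succ']; group
        _ = σ * (g * c ^ k) * σ⁻¹ := by rw [ih]
        _ = (σ * g * σ⁻¹) * (σ * c ^ k * σ⁻¹) := by group
        _ = g * c * c ^ k := by rw [he, hk1]
        _ = g * c ^ (k + 1) := by rw [pow_succ', mul_assoc]
  have h1 := key r
  rw [h.pow] at h1
  have h2 : c ^ r = 1 := by
    simpa using h1.symm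
  have hd : orderOf c ∣ r := orderOf_dvd_of_pow_eq_one h2
  have hd2 : orderOf c ∣ Nat.card G := Subgroup.orderOf_dvd_natCard G hc
  rcases (Nat.dvd_prime h.prime).mp hd with h3 | h3
  · exact orderOf_eq_one_iff.mp h3
  · exact absurd (h3 ▸ hd2) h.ndvd

/-- If a conjugate of `τ` commutes with `σ`, the conjugator commutes with `σ`. -/
theorem Setup.commute_of_conj [Finite A] (h : Setup G r σ τ) {g : A} (hg : g ∈ G)
    (hc : Commute (g * τ * g⁻¹) σ) : Commute g σ := by
  have := h.normal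
  have hτσ : Commute τ σ := h.fix τ h.mem (Commute.refl τ)
  set g' := σ * g * σ⁻¹ with hg'
  have hg'G : g' ∈ G := h.normal.conj_mem g hg σ
  set c := g⁻¹ * g' with hcdef
  have hcG : c ∈ G := G.mul_mem (G.inv_mem hg) hg'G
  have h1 : g' * τ * g'⁻¹ = g * τ * g⁻¹ := by
    have e1 : g' * τ * g'⁻¹ = σ * g * (σ⁻¹ * τ * σ) * g⁻¹ * σ⁻¹ := by rw [hg']; group
    have e2 : σ⁻¹ * τ * σ = τ := comm_conj' hτσ
    rw [e1, e2]
    have e3 : σ * g * τ * g⁻¹ * σ⁻¹ = σ * (g * τ * g⁻¹) * σ⁻¹ := by group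
    rw [e3, ← hc.eq]; group
  have h2 : Commute c τ := by
    unfold Commute SemiconjBy
    have : c * τ = g⁻¹ * (g' * τ * g'⁻¹) * g' := by rw [hcdef]; group
    rw [this, h1, hcdef]; group
  have h3 : Commute c σ := h.fix c hcG h2
  have h4 : c = 1 := h.eq_one_of_cocycle (g := g) hcG h3 (by rw [hcdef, hg']; group)
  have h5 : g' = g := by
    have : g' = g * c := by rw [hcdef]; group
    rw [this, h4, mul_one]
  unfold Commute SemiconjBy
  have : σ * g = g' * σ := by rw [hg']; group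
  rw [this, h5]

/-- Any element `b` conjugating `τ` into `C(σ)`... the A × B argument on a 2-group. -/
theorem Setup.commute_of_pGroup [Finite A] (h : Setup G r σ τ) {P : Subgroup A} (hPG : P ≤ G)
    (hp : IsPGroup 2 P) (hσ : σ ∈ Subgroup.normalizer (P : Set A)) (hτ : τ ∈ P) :
    ∀ t ∈ P, Commute t σ := by
  classical
  haveI : Fact (Nat.Prime 2) := ⟨Nat.prime_two⟩
  haveI : Group.IsNilpotent P := hp.isNilpotent
  set Q : Subgroup P := (Subgroup.centralizer ({σ} : Set A)).subgroupOf P with hQ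
  have hQmem : ∀ t : P, t ∈ Q ↔ Commute (t : A) σ := by
    intro t
    rw [hQ, Subgroup.mem_subgroupOf, Subgroup.mem_centralizer_singleton_iff]
    exact Iff.rfl
  have hτσ : Commute τ σ := h.fix τ h.mem (Commute.refl τ)
  have hQtop : Q = ⊤ := by
    by_contra hne
    have hlt : Q < ⊤ := lt_top_iff_ne_top.mpr hne
    have hnc := Group.normalizerCondition_of_isNilpotent (G := P) Q hlt
    obtain ⟨b, hbN, hbQ⟩ := SetLike.exists_of_lt hnc
    apply hbQ
    rw [hQmem]
    -- `d = b⁻¹ σ b σ⁻¹`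
    have hbG : (b : A) ∈ G := hPG b.2
    have hbs : σ * (b : A) * σ⁻¹ ∈ G := h.normal.conj_mem _ hbG σ
    set d : A := (b : A)⁻¹ * (σ * b * σ⁻¹) with hd
    have hdG : d ∈ G := G.mul_mem (G.inv_mem hbG) hbs
    have hτQ : (⟨τ, hτ⟩ : P) ∈ Q := (hQmem _).mpr hτσ
    have h1 : Commute ((b : A) * τ * (b : A)⁻¹) σ := by
      have := (Subgroup.mem_normalizer_iff.mp hbN _).mp hτQ
      have h2 := (hQmem _).mp this
      simpa using h2
    have h2 : (σ * (b : A) * σ⁻¹) * τ * (σ * (b : A) * σ⁻¹)⁻¹ = (b : A) * τ * (b : A)⁻¹ := by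
      have e2 : σ⁻¹ * τ * σ = τ := comm_conj' hτσ
      have e1 : (σ * (b : A) * σ⁻¹) * τ * (σ * (b : A) * σ⁻¹)⁻¹
          = σ * (b : A) * (σ⁻¹ * τ * σ) * (b : A)⁻¹ * σ⁻¹ := by group
      rw [e1, e2]
      have e3 : σ * (b : A) * τ * (b : A)⁻¹ * σ⁻¹ = σ * ((b : A) * τ * (b : A)⁻¹) * σ⁻¹ := by group
      rw [e3, ← h1.eq]; group
    have hdτ : Commute d τ := by
      unfold Commute SemiconjBy
      have : d * τ = (b : A)⁻¹ * ((σ * (b : A) * σ⁻¹) * τ * (σ * (b : A) * σ⁻¹)⁻¹) * (σ * (b : A) * σ⁻¹) := by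
        rw [hd]; group
      rw [this, h2, hd]; group
    have hdσ : Commute d σ := h.fix d hdG hdτ
    have hd1 : d = 1 := h.eq_one_of_cocycle (g := (b : A)) hdG hdσ (by rw [hd]; group)
    have h5 : σ * (b : A) * σ⁻¹ = b := by
      have : σ * (b : A) * σ⁻¹ = b * d := by rw [hd]; group
      rw [this, hd1, mul_one]
    unfold Commute SemiconjBy
    have : σ * (b : A) = (σ * (b : A) * σ⁻¹) * σ := by group
    rw [this, h5]
  intro t ht
  have : (⟨t, ht⟩ : P) ∈ Q := by rw [hQtop]; trivial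
  exact (hQmem _).mp this

end Cfsg.Agent.Lib.CoprimeCent
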