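import Mathlib
import Cfsg.Agent.Lib.CoprimeCent.Basic

set_option autoImplicit false

open Pointwise

namespace Cfsg.Agent.Lib.CoprimeCent

open Cfsg.Agent.Lib.Coprime.InvSylow

variable {A : Type*} [Group A]
variable {G : Subgroup A} {r : ℕ} {σ τ : A}

theorem Setup.card_zpowers [Finite A] (h : Setup G r σ τ) : Nat.card (Subgroup.zpowers σ) = r := by
  rw [Nat.card_zpowers]
  have hd : orderOf σ ∣ r := orderOf_dvd_of_pow_eq_one h.pow
  rcases (Nat.dvd_prime h.prime).mp hd with h3 | h3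
  · exact absurd (orderOf_eq_one_iff.mp h3) h.ne
  · exact h3

theorem Setup.coprime [Finite A] (h : Setup G r σ τ) {K : Subgroup A} (hK : K ≤ G) :
    (Nat.card (Subgroup.zpowers σ)).Coprime (Nat.card K) := by
  rw [h.card_zpowers]
  apply (Nat.Prime.coprime_iff_not_dvd h.prime).mpr
  intro hd
  exact h.ndvd (hd.trans (Subgroup.card_dvd_of_le hK))

theorem Setup.zpowers_le_normalizer (h : Setup G r σ τ) :
    Subgroup.zpowers σ ≤ Subgroup.normalizer (G : Set A) := by
  have hn := h.normal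
  intro a _
  refine Subgroup.mem_normalizer_iff.mpr (fun n => ⟨fun hk => hn.conj_mem n hk a, fun hk => ?_⟩)
  have := hn.conj_mem _ hk a⁻¹
  simpa [mul_assoc] using this

theorem zpowers_le_normalizer_of_mem {x : A} {K : Subgroup A}
    (hx : x ∈ Subgroup.normalizer (K : Set A)) :
    Subgroup.zpowers x ≤ Subgroup.normalizer (K : Set A) := by
  rw [Subgroup.zpowers_le]; exact hx

/-- An element normalizes a subgroup of a finite group if conjugation maps it into itself. -/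
theorem mem_normalizer_of_conj_le [Finite A] {K : Subgroup A} {a : A}
    (h : ∀ y ∈ K, a * y * a⁻¹ ∈ K) : a ∈ Subgroup.normalizer (K : Set A) := by
  apply mem_normalizer_of_map_conj_eq
  have hle : K.map (MulAut.conj a).toMonoidHom ≤ K := by
    rintro _ ⟨y, hy, rfl⟩
    simpa [MulAut.conj_apply] using h y hy
  apply Subgroup.eq_of_le_of_card_ge hle
  have : Nat.card (K.map (MulAut.conj a).toMonoidHom) = Nat.card K :=
    Nat.card_congr (Subgroup.equivMapOfInjective K _ (MulAut.conj a).injective).toEquiv.symm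
  rw [this]

theorem mem_normalizer_of_commute {K : Subgroup A} {a : A} (h : ∀ t ∈ K, Commute t a) :
    a ∈ Subgroup.normalizer (K : Set A) := by
  refine Subgroup.mem_normalizer_iff.mpr (fun n => ⟨fun hk => ?_, fun hk => ?_⟩)
  · rw [comm_conj (h n hk)]; exact hk
  · have hc := h _ hk
    have e : n = a * n * a⁻¹ := by
      have := comm_conj' hc
      have e2 : a⁻¹ * (a * n * a⁻¹) * a = n := by group
      rw [e2] at this
      exact this
    rw [e]; exact hk

/-- There is a Sylow 2-subgroup of `G` containing `τ` and centralized by `σ`. -/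
theorem Setup.exists_sylow [Finite A] (h : Setup G r σ τ) :
    ∃ P : Sylow 2 G, τ ∈ (P : Subgroup G).map G.subtype ∧
      ∀ t ∈ (P : Subgroup G).map G.subtype, Commute t σ := by
  haveI : Fact (Nat.Prime 2) := ⟨Nat.prime_two⟩
  have hτσ : Commute τ σ := h.fix τ h.mem (Commute.refl τ)
  have hU : IsPGroup 2 (Subgroup.zpowers τ) := by
    apply IsPGroup.of_card (n := 1)
    rw [Nat.card_zpowers, h.ord, pow_one]
  have hUG : Subgroup.zpowers τ ≤ G := by
    rw [Subgroup.zpowers_le]; exact h.mem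
  have hUA : Subgroup.zpowers σ ≤ Subgroup.normalizer ((Subgroup.zpowers τ : Subgroup A) : Set A) := by
    apply zpowers_le_normalizer_of_mem
    apply mem_normalizer_of_commute
    intro t ht
    obtain ⟨k, rfl⟩ := Subgroup.mem_zpowers_iff.mp ht
    exact hτσ.zpow_left k
  obtain ⟨P, hUP, hPA⟩ := exists_invariant_sylow_ge (A := Subgroup.zpowers σ) (K := G)
    h.zpowers_le_normalizer (h.coprime le_rfl) (Or.inl inferInstance) 2 _ hUG hU hUA
  refine ⟨P, hUP (Subgroup.mem_zpowers τ), ?_⟩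
  apply h.commute_of_pGroup
  · rintro _ ⟨x, _, rfl⟩
    exact x.2
  · exact P.isPGroup'.map _
  · exact hPA (Subgroup.mem_zpowers σ)
  · exact hUP (Subgroup.mem_zpowers τ)

/-- A `σ`-invariant 2-subgroup of `G` is centralized by `σ`. -/
theorem Setup.commute_of_invariant [Finite A] (h : Setup G r σ τ) {B : Subgroup A} (hBG : B ≤ G)
    (hB : IsPGroup 2 B) (hσ : σ ∈ Subgroup.normalizer (B : Set A)) :
    ∀ t ∈ B, Commute t σ := by
  haveI : Fact (Nat.Prime 2) := ⟨Nat.prime_two⟩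
  obtain ⟨P₁, -, hP₁⟩ := h.exists_sylow
  have hP₁A : Subgroup.zpowers σ ≤
      Subgroup.normalizer (((P₁ : Subgroup G).map G.subtype : Subgroup A) : Set A) :=
    zpowers_le_normalizer_of_mem (mem_normalizer_of_commute hP₁)
  obtain ⟨P₂, hBP, hP₂A⟩ := exists_invariant_sylow_ge (A := Subgroup.zpowers σ) (K := G)
    h.zpowers_le_normalizer (h.coprime le_rfl) (Or.inl inferInstance) 2 B hBG hB
    (zpowers_le_normalizer_of_mem hσ)
  obtain ⟨c, hcσ, hc⟩ := invariant_sylow_conj (A := Subgroup.zpowers σ) (K := G)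
    h.zpowers_le_normalizer (h.coprime le_rfl) (Or.inl inferInstance) 2 P₁ P₂ hP₁A hP₂A
  have hcσ' : Commute (c : A) σ := by
    have := (Subgroup.mem_centralizer_iff.mp hcσ) σ (Subgroup.mem_zpowers σ)
    exact this.symm
  intro t ht
  have h2 : t ∈ (P₂ : Subgroup G).map G.subtype := hBP ht
  rw [← hc, Sylow.pointwise_smul_def, map_subtype_conj_smul] at h2
  obtain ⟨t₁, ht₁, rfl⟩ := h2
  have := hP₁ t₁ ht₁
  simp only [MulEquiv.toMonoidHom_eq_coe, MonoidHom.coe_coe, MulAut.conj_apply]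
  exact (hcσ'.mul_left this).mul_left hcσ'.inv_left

/-- A conjugate of `σ` commuting with a conjugate `g τ g⁻¹` is `g σ g⁻¹`. -/
theorem Setup.conj_eq_of_commute [Finite A] (h : Setup G r σ τ) {g k : A} (hg : g ∈ G) (hk : k ∈ G)
    (hc : Commute (g * τ * g⁻¹) (k * σ * k⁻¹)) : k * σ * k⁻¹ = g * σ * g⁻¹ := by
  set a := k⁻¹ * g with ha
  have haG : a ∈ G := G.mul_mem (G.inv_mem hk) hg
  have h1 : Commute (a * τ * a⁻¹) σ := by
    have e : a * τ * a⁻¹ = k⁻¹ * (g * τ * g⁻¹) * k := by rw [ha]; group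
    rw [e]
    unfold Commute SemiconjBy
    have hce := hc.eq
    have e2 : k⁻¹ * (g * τ * g⁻¹) * k * σ = k⁻¹ * ((g * τ * g⁻¹) * (k * σ * k⁻¹)) * k := by group
    rw [e2, hce]; group
  have h2 : Commute a σ := h.commute_of_conj haG h1
  have e : g = k * a := by rw [ha]; group
  rw [e]
  have e3 : k * a * σ * (k * a)⁻¹ = k * (a * σ * a⁻¹) * k⁻¹ := by group
  rw [e3, comm_conj h2.symm]

theorem Setup.conj_commute (h : Setup G r σ τ) (g : A) : Commute (g * τ * g⁻¹) (g * σ * g⁻¹) := by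
  have hτσ : Commute τ σ := h.fix τ h.mem (Commute.refl τ)
  unfold Commute SemiconjBy
  have e1 : g * τ * g⁻¹ * (g * σ * g⁻¹) = g * (τ * σ) * g⁻¹ := by group
  have e2 : g * σ * g⁻¹ * (g * τ * g⁻¹) = g * (σ * τ) * g⁻¹ := by group
  rw [e1, e2, hτσ.eq]

theorem Setup.inv_conj (h : Setup G r σ τ) (g : A) : (g * τ * g⁻¹)⁻¹ = g * τ * g⁻¹ := by
  have h1 : τ * τ = 1 := by
    rw [← pow_two, ← h.ord]; exact pow_orderOf_eq_one τ
  have h2 : τ⁻¹ = τ := inv_eq_of_mul_eq_one_left h1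
  calc (g * τ * g⁻¹)⁻¹ = g * τ⁻¹ * g⁻¹ := by group
    _ = g * τ * g⁻¹ := by rw [h2]

/-- Two conjugates of `τ` sending `x` to the same point have a common fixed point. -/
theorem Setup.same_fixed [Finite A] (h : Setup G r σ τ) {x u₁ u₂ : A} (hx : ∃ k ∈ G, x = k * σ * k⁻¹)
    (hu₁ : ∃ g ∈ G, u₁ = g * τ * g⁻¹) (hu₂ : ∃ g ∈ G, u₂ = g * τ * g⁻¹)
    (he : u₁ * x * u₁⁻¹ = u₂ * x * u₂⁻¹) :
    ∃ y, (∃ k ∈ G, y = k * σ * k⁻¹) ∧ Commute u₁ y ∧ Commute u₂ y := by
  classical
  haveI : Fact (Nat.Prime 2) := ⟨Nat.prime_two⟩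
  have hn := h.normal
  obtain ⟨k₀, hk₀, rfl⟩ := hx
  set x := k₀ * σ * k₀⁻¹ with hxdef
  have hsx : Setup G r x (k₀ * τ * k₀⁻¹) := h.conj hk₀
  obtain ⟨g₁, hg₁, hu₁e⟩ := hu₁
  obtain ⟨g₂, hg₂, hu₂e⟩ := hu₂
  have hu₁G : u₁ ∈ G := by rw [hu₁e]; exact hn.conj_mem _ h.mem _
  have hu₂G : u₂ ∈ G := by rw [hu₂e]; exact hn.conj_mem _ h.mem _
  have hi₁ : u₁⁻¹ = u₁ := by rw [hu₁e]; exact h.inv_conj g₁
  have hi₂ : u₂⁻¹ = u₂ := by rw [hu₂e]; exact h.inv_conj g₂
  set x' := u₁ * x * u₁⁻¹ with hx'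
  set c := u₁⁻¹ * u₂ with hc
  have hc1 : Commute c x := by
    unfold Commute SemiconjBy
    have e1 : c * x = u₁⁻¹ * (u₂ * x * u₂⁻¹) * u₂ := by rw [hc]; group
    rw [e1, ← he, hx', hc]; group
  have hx2 : u₂ * x' * u₂⁻¹ = x := by
    rw [he, hi₂]
    have e : u₂ * u₂ = 1 := by
      nth_rewrite 1 [← hi₂]
      exact inv_mul_cancel u₂
    calc u₂ * (u₂ * x * u₂) * u₂ = (u₂ * u₂) * x * (u₂ * u₂) := by group
      _ = x := by rw [e]; group
  have hc2 : Commute c x' := by
    unfold Commute SemiconjBy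
    have e1 : c * x' = u₁⁻¹ * (u₂ * x' * u₂⁻¹) * u₂ := by rw [hc]; group
    rw [e1, hx2, hc]
    have e2 : u₁⁻¹ * x = (u₁ * x * u₁⁻¹) * u₁⁻¹ := by
      rw [hi₁]
      have e : u₁ * u₁ = 1 := by
        nth_rewrite 1 [← hi₁]
        exact inv_mul_cancel u₁
      calc u₁ * x = u₁ * x * (u₁ * u₁) := by rw [e]; group
        _ = u₁ * x * u₁ * u₁ := by group
    rw [e2, hx']
    group
  set P : Subgroup A := Subgroup.closure {x, x'} with hP
  have hxP : x ∈ P := Subgroup.subset_closure (by simp)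
  have hx'P : x' ∈ P := Subgroup.subset_closure (by simp)
  have hPc : ∀ y ∈ P, Commute c y := by
    intro y hy
    induction hy using Subgroup.closure_induction with
    | mem y hy =>
      rcases hy with rfl | hy
      · exact hc1
      · rw [Set.mem_singleton_iff.mp hy]; exact hc2
    | one => exact Commute.one_right c
    | mul a b _ _ ha hb => exact ha.mul_right hb
    | inv a _ ha => exact ha.inv_right
  have hu₁x' : u₁ * x' * u₁⁻¹ = x := by
    rw [hx', hi₁]
    have e : u₁ * u₁ = 1 := by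
      nth_rewrite 1 [← hi₁]
      exact inv_mul_cancel u₁
    calc u₁ * (u₁ * x * u₁) * u₁ = (u₁ * u₁) * x * (u₁ * u₁) := by group
      _ = x := by rw [e]; group
  have hu₁N : u₁ ∈ Subgroup.normalizer (P : Set A) := by
    apply mem_normalizer_of_conj_le
    intro y hy
    induction hy using Subgroup.closure_induction with
    | mem y hy =>
      rcases hy with rfl | hy
      · exact hx'P
      · rw [Set.mem_singleton_iff.mp hy, hu₁x']; exact hxP
    | one => simp
    | mul a b _ _ ha hb =>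
      have e : u₁ * (a * b) * u₁⁻¹ = (u₁ * a * u₁⁻¹) * (u₁ * b * u₁⁻¹) := by group
      rw [e]; exact P.mul_mem ha hb
    | inv a _ ha =>
      have e : u₁ * a⁻¹ * u₁⁻¹ = (u₁ * a * u₁⁻¹)⁻¹ := by group
      rw [e]; exact P.inv_mem ha
  set H : Subgroup A := (P ⊓ G) ⊔ Subgroup.zpowers u₁ with hH
  have hHG : H ≤ G := sup_le inf_le_right (by rw [Subgroup.zpowers_le]; exact hu₁G)
  have hHN : H ≤ Subgroup.normalizer (P : Set A) :=
    sup_le (inf_le_left.trans Subgroup.le_normalizer) (by rw [Subgroup.zpowers_le]; exact hu₁N)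
  have hu₁H : u₁ ∈ H := (le_sup_right : Subgroup.zpowers u₁ ≤ H) (Subgroup.mem_zpowers u₁)
  have hxN : x ∈ Subgroup.normalizer (H : Set A) := by
    apply mem_normalizer_of_conj_le
    have hle : H ≤ H.comap (MulAut.conj x).toMonoidHom := by
      apply sup_le
      · intro y hy
        rw [Subgroup.mem_comap]
        apply (le_sup_left : P ⊓ G ≤ H)
        refine ⟨?_, ?_⟩
        · simp only [MulEquiv.toMonoidHom_eq_coe, MonoidHom.coe_coe, MulAut.conj_apply]
          exact P.mul_mem (P.mul_mem hxP hy.1) (P.inv_mem hxP)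
        · simp only [MulEquiv.toMonoidHom_eq_coe, MonoidHom.coe_coe, MulAut.conj_apply]
          exact hn.conj_mem _ hy.2 x
      · rw [Subgroup.zpowers_le, Subgroup.mem_comap]
        simp only [MulEquiv.toMonoidHom_eq_coe, MonoidHom.coe_coe, MulAut.conj_apply]
        have e : x * u₁ * x⁻¹ = u₁ * (x' * x⁻¹) := by
          have e0 : u₁ * (x' * x⁻¹) = u₁ * (u₁ * x * u₁⁻¹) * x⁻¹ := by
            rw [hx']; group
          rw [e0, hi₁]
          have e : u₁ * u₁ = 1 := by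
            nth_rewrite 1 [← hi₁]
            exact inv_mul_cancel u₁
          calc x * u₁ * x⁻¹ = (u₁ * u₁) * x * u₁ * x⁻¹ := by rw [e]; group
            _ = u₁ * (u₁ * x * u₁) * x⁻¹ := by group
        rw [e]
        apply H.mul_mem hu₁H
        apply (le_sup_left : P ⊓ G ≤ H)
        refine ⟨P.mul_mem hx'P (P.inv_mem hxP), ?_⟩
        have e2 : x' * x⁻¹ = u₁ * (x * u₁⁻¹ * x⁻¹) := by rw [hx']; group
        rw [e2]
        exact G.mul_mem hu₁G (hn.conj_mem _ (G.inv_mem hu₁G) x)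
    intro y hy
    have := hle hy
    rw [Subgroup.mem_comap] at this
    simpa [MulAut.conj_apply] using this
  obtain ⟨P₂, hP₂⟩ := exists_invariant_sylow (A := Subgroup.zpowers x) (K := H)
    (zpowers_le_normalizer_of_mem hxN) (hsx.coprime hHG) (Or.inl inferInstance) 2
  have hP₂G : ((P₂ : Subgroup H).map H.subtype) ≤ G := by
    rintro _ ⟨y, _, rfl⟩
    exact hHG y.2
  have hP₂c := hsx.commute_of_invariant hP₂G (P₂.isPGroup'.map _) (hP₂ (Subgroup.mem_zpowers x))
  -- a Sylow subgroup of `H` through `u₁`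
  have hū : IsPGroup 2 (Subgroup.zpowers (⟨u₁, hu₁H⟩ : H)) := by
    apply IsPGroup.of_card (n := 1)
    rw [Nat.card_zpowers, Subgroup.orderOf_mk, hu₁e, pow_one]
    have := orderOf_injective (MulAut.conj g₁).toMonoidHom (MulAut.conj g₁).injective τ
    rw [← h.ord, ← this]
    simp [MulAut.conj_apply]
  obtain ⟨S₁, hS₁⟩ := hū.exists_le_sylow
  obtain ⟨a, ha⟩ := MulAction.exists_smul_eq H P₂ S₁
  have hmem : (⟨u₁, hu₁H⟩ : H) ∈ (S₁ : Subgroup H) := hS₁ (Subgroup.mem_zpowers _)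
  rw [← ha, Sylow.smul_def, Sylow.pointwise_smul_def, Subgroup.mem_pointwise_smul_iff_inv_smul_mem] at hmem
  have hcomm : Commute ((a : A)⁻¹ * u₁ * (a : A)) x := by
    apply hP₂c
    refine ⟨_, hmem, ?_⟩
    simp [MulAut.smul_def, MulAut.conj_apply, mul_assoc]
  refine ⟨(a : A) * x * (a : A)⁻¹, ⟨(a : A) * k₀, G.mul_mem (hHG a.2) hk₀, ?_⟩, ?_, ?_⟩
  · rw [hxdef]; group
  · unfold Commute SemiconjBy
    have hce := hcomm.eq
    have e1 : u₁ * ((a : A) * x * (a : A)⁻¹) = (a : A) * (((a : A)⁻¹ * u₁ * (a : A)) * x) * (a : A)⁻¹ := by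
      group
    rw [e1, hce]; group
  · have hyP : (a : A) * x * (a : A)⁻¹ ∈ P :=
      (Subgroup.mem_normalizer_iff.mp (hHN a.2) x).mp hxP
    have h3 : Commute u₁ ((a : A) * x * (a : A)⁻¹) := by
      unfold Commute SemiconjBy
      have hce := hcomm.eq
      have e1 : u₁ * ((a : A) * x * (a : A)⁻¹) = (a : A) * (((a : A)⁻¹ * u₁ * (a : A)) * x) * (a : A)⁻¹ := by
        group
      rw [e1, hce]; group
    have e : u₂ = u₁ * c := by rw [hc]; group
    rw [e]
    exact h3.mul_left (hPc _ hyP)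

end Cfsg.Agent.Lib.CoprimeCent
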