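import Mathlib
import Cfsg.Agent.Lib.CoprimeCent.Fix

set_option autoImplicit false

namespace Cfsg.Agent.Lib.CoprimeCent

variable {A : Type*} [Group A] [Finite A]
variable {G : Subgroup A} {r : ℕ} {σ τ : A}

/-- Two conjugates of `τ` with the same fixed point act identically on the conjugates of `σ`. -/
theorem Setup.act_eq (h : Setup G r σ τ) {w y y' x : A} (hw : ∃ k ∈ G, w = k * σ * k⁻¹)
    (hy : ∃ g ∈ G, y = g * τ * g⁻¹) (hy' : ∃ g ∈ G, y' = g * τ * g⁻¹)
    (hyw : Commute y w) (hy'w : Commute y' w) (hx : ∃ k ∈ G, x = k * σ * k⁻¹) :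
    y * x * y⁻¹ = y' * x * y'⁻¹ := by
  classical
  haveI := Fintype.ofFinite A
  have hn := h.normal
  set Sig : Finset A := Finset.univ.filter (fun x => ∃ k ∈ G, x = k * σ * k⁻¹) with hSig
  set Dd : Finset A := Finset.univ.filter (fun u => ∃ g ∈ G, u = g * τ * g⁻¹) with hDd
  have memS : ∀ {a : A}, a ∈ Sig ↔ ∃ k ∈ G, a = k * σ * k⁻¹ := by
    intro a; simp [hSig]
  have memD : ∀ {a : A}, a ∈ Dd ↔ ∃ g ∈ G, a = g * τ * g⁻¹ := by
    intro a; simp [hDd]
  -- uniqueness of the fixed point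
  have huniq : ∀ {u a b : A}, u ∈ Dd → a ∈ Sig → b ∈ Sig → Commute u a → Commute u b → a = b := by
    intro u a b hu ha hb hua hub
    obtain ⟨g, hg, rfl⟩ := memD.mp hu
    obtain ⟨k, hk, rfl⟩ := memS.mp ha
    obtain ⟨l, hl, rfl⟩ := memS.mp hb
    rw [h.conj_eq_of_commute hg hk hua, h.conj_eq_of_commute hg hl hub]
  have hex : ∀ {u : A}, u ∈ Dd → ∃ a ∈ Sig, Commute u a := by
    intro u hu
    obtain ⟨g, hg, rfl⟩ := memD.mp hu
    exact ⟨g * σ * g⁻¹, memS.mpr ⟨g, hg, rfl⟩, h.conj_commute g⟩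
  set d := (Dd.filter (fun u => Commute u σ)).card with hd
  have hfib : ∀ a ∈ Sig, (Dd.filter (fun u => Commute u a)).card = d := by
    intro a ha
    obtain ⟨k, hk, rfl⟩ := memS.mp ha
    rw [hd]
    refine Finset.card_nbij' (fun u => k⁻¹ * u * k) (fun u => k * u * k⁻¹) ?_ ?_ ?_ ?_
    · intro u hu
      have hu' := Finset.mem_coe.mp hu
      rw [Finset.mem_filter] at hu'
      obtain ⟨hu1, hu2⟩ := hu'
      obtain ⟨g, hg, rfl⟩ := memD.mp hu1
      apply Finset.mem_coe.mpr
      rw [Finset.mem_filter]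
      refine ⟨memD.mpr ⟨k⁻¹ * g, G.mul_mem (G.inv_mem hk) hg, by group⟩, ?_⟩
      unfold Commute SemiconjBy at hu2 ⊢
      have e1 : k⁻¹ * (g * τ * g⁻¹) * k * σ = k⁻¹ * (g * τ * g⁻¹ * (k * σ * k⁻¹)) * k := by group
      rw [e1, hu2]; group
    · intro u hu
      have hu' := Finset.mem_coe.mp hu
      rw [Finset.mem_filter] at hu'
      obtain ⟨hu1, hu2⟩ := hu'
      obtain ⟨g, hg, rfl⟩ := memD.mp hu1
      apply Finset.mem_coe.mpr
      rw [Finset.mem_filter]
      refine ⟨memD.mpr ⟨k * g, G.mul_mem hk hg, by group⟩, ?_⟩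
      unfold Commute SemiconjBy at hu2 ⊢
      have e1 : k * (g * τ * g⁻¹) * k⁻¹ * (k * σ * k⁻¹) = k * (g * τ * g⁻¹ * σ) * k⁻¹ := by group
      rw [e1, hu2]; group
    · intro u _; group
    · intro u _; group
  have hD : Dd.card = Sig.card * d := by
    have hb := Finset.sum_card_bipartiteAbove_eq_sum_card_bipartiteBelow (s := Dd) (t := Sig)
      (fun u a => Commute u a)
    have h1 : ∀ u ∈ Dd, (Sig.bipartiteAbove (fun u a => Commute u a) u).card = 1 := by
      intro u hu
      obtain ⟨a, ha, hua⟩ := hex hu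
      rw [Finset.card_eq_one]
      refine ⟨a, ?_⟩
      ext b
      simp only [Finset.mem_bipartiteAbove, Finset.mem_singleton]
      constructor
      · rintro ⟨hb, hub⟩
        exact huniq hu hb ha hub hua
      · rintro rfl
        exact ⟨ha, hua⟩
    have h2 : ∀ a ∈ Sig, (Dd.bipartiteBelow (fun u a => Commute u a) a).card = d := by
      intro a ha
      rw [← hfib a ha]
      rfl
    rw [Finset.sum_congr rfl h1, Finset.sum_congr rfl h2] at hb
    simpa using hb
  have hwS : w ∈ Sig := memS.mpr hw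
  have hxS : x ∈ Sig := memS.mpr hx
  have hyD : y ∈ Dd := memD.mpr hy
  have hy'D : y' ∈ Dd := memD.mpr hy'
  by_cases hyx : Commute y x
  · have hxw : x = w := huniq hyD hxS hwS hyx hyw
    subst hxw
    rw [comm_conj hyx.symm, comm_conj hy'w.symm]
  -- the counting with `x` fixed
  set D' := Dd.filter (fun u => ¬ Commute u x) with hD'
  set S' := Sig.erase x with hS'
  set f : A → A := fun u => u * x * u⁻¹ with hf
  have hcD' : D'.card + d = Dd.card := by
    have := Finset.card_filter_add_card_filter_not (s := Dd) (fun u => Commute u x)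
    rw [hfib x hxS] at this
    rw [hD']
    omega
  have hcS' : S'.card + 1 = Sig.card := Finset.card_erase_add_one hxS
  have hcount : D'.card = S'.card * d := by
    have : (S'.card + 1) * d = Dd.card := by rw [hcS', hD]
    have e : (S'.card + 1) * d = S'.card * d + d := by ring
    omega
  have hmaps : ∀ u ∈ D', f u ∈ S' := by
    intro u hu
    rw [hD', Finset.mem_filter] at hu
    obtain ⟨hu1, hu2⟩ := hu
    rw [hS', Finset.mem_erase]
    constructor
    · intro he
      apply hu2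
      unfold Commute SemiconjBy
      have : u * x = (u * x * u⁻¹) * u := by group
      rw [this]
      change f u * u = _
      rw [he]
    · obtain ⟨g, hg, rfl⟩ := memD.mp hu1
      obtain ⟨k, hk, hk'⟩ := memS.mp hxS
      refine memS.mpr ⟨(g * τ * g⁻¹) * k, G.mul_mem (hn.conj_mem _ h.mem _) hk, ?_⟩
      rw [hf]
      simp only
      rw [hk']
      group
  have hfw := Finset.card_eq_sum_card_fiberwise (s := D') (t := S') (f := f) hmaps
  -- each fibre lies in one `D_a`
  have hsub : ∀ u₁ ∈ D', ∀ a ∈ Sig, Commute u₁ a →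
      (D'.filter (fun u => f u = f u₁)) ⊆ Dd.filter (fun u => Commute u a) := by
    intro u₁ hu₁ a ha hu₁a u hu
    rw [Finset.mem_filter] at hu
    obtain ⟨hu1, hu2⟩ := hu
    rw [hD', Finset.mem_filter] at hu1 hu₁
    rw [Finset.mem_filter]
    refine ⟨hu1.1, ?_⟩
    obtain ⟨b, hb, hub1, hub2⟩ := h.same_fixed hx (memD.mp hu₁.1) (memD.mp hu1.1) hu2.symm
    have : b = a := huniq hu₁.1 (memS.mpr hb) ha hub1 hu₁a
    rw [← this]
    exact hub2
  have hle : ∀ b ∈ S', (D'.filter (fun u => f u = b)).card ≤ d := by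
    intro b _
    by_cases hne : (D'.filter (fun u => f u = b)).Nonempty
    · obtain ⟨u₁, hu₁⟩ := hne
      rw [Finset.mem_filter] at hu₁
      obtain ⟨hu₁1, rfl⟩ := hu₁
      obtain ⟨a, ha, hu₁a⟩ := hex (Finset.mem_of_mem_filter _ hu₁1)
      calc _ ≤ (Dd.filter (fun u => Commute u a)).card :=
            Finset.card_le_card (hsub u₁ hu₁1 a ha hu₁a)
        _ = d := hfib a ha
    · rw [Finset.not_nonempty_iff_eq_empty.mp hne]
      simp
  have hall : ∀ b ∈ S', (D'.filter (fun u => f u = b)).card = d := by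
    have hs : ∑ b ∈ S', (D'.filter (fun u => f u = b)).card = ∑ _b ∈ S', d := by
      rw [← hfw, hcount]; simp
    exact (Finset.sum_eq_sum_iff_of_le hle).mp hs
  have hyD' : y ∈ D' := by
    rw [hD', Finset.mem_filter]
    exact ⟨hyD, hyx⟩
  have hfeq : D'.filter (fun u => f u = f y) = Dd.filter (fun u => Commute u w) := by
    apply Finset.eq_of_subset_of_card_le (hsub y hyD' w hwS hyw)
    rw [hfib w hwS, hall _ (hmaps y hyD')]
  have hy'mem : y' ∈ Dd.filter (fun u => Commute u w) := by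
    rw [Finset.mem_filter]
    exact ⟨hy'D, hy'w⟩
  rw [← hfeq, Finset.mem_filter] at hy'mem
  exact hy'mem.2.symm

end Cfsg.Agent.Lib.CoprimeCent
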