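import Mathlib
import Cfsg.Agent.Lib.CoprimeCent.Count
import Cfsg.Agent.S0215

set_option autoImplicit false

namespace Cfsg.Agent.Lib.CoprimeCent

variable {A : Type*} [Group A] [Finite A]
variable {G : Subgroup A} {r : ℕ} {σ τ : A}

/-- The main theorem, internal form: a prime order element of `A` outside the normal simple subgroup `G`,
with order prime to `|G|`, cannot centralize the centralizer of an involution of `G` without centralizing `G`. -/
theorem Setup.commute_of_simple (h : Setup G r σ τ) (hs : IsSimpleGroup G)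
    (hnab : ¬ IsMulCommutative G) : ∀ g ∈ G, Commute g σ := by
  classical
  have hn := h.normal
  by_contra hcon
  push Not at hcon
  obtain ⟨g₀, hg₀, hg₀σ⟩ := hcon
  -- the kernel of the action on the conjugates of `σ`
  let K : Subgroup G :=
    { carrier := {g | ∀ x : A, (∃ k ∈ G, x = k * σ * k⁻¹) → Commute (g : A) x}
      mul_mem' := fun {a b} ha hb x hx => by
        simpa using (ha x hx).mul_left (hb x hx)
      one_mem' := fun x _ => by simp
      inv_mem' := fun {a} ha x hx => by
        simpa using (ha x hx).inv_left }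
  have hKmem : ∀ g : G, g ∈ K ↔ ∀ x : A, (∃ k ∈ G, x = k * σ * k⁻¹) → Commute (g : A) x :=
    fun g => Iff.rfl
  have hKn : K.Normal := by
    refine ⟨fun a ha b => ?_⟩
    rw [hKmem] at ha ⊢
    rintro x ⟨k, hk, rfl⟩
    have h1 := ha ((b : A)⁻¹ * (k * σ * k⁻¹) * b) ⟨(b : A)⁻¹ * k, G.mul_mem (G.inv_mem b.2) hk, by group⟩
    unfold Commute SemiconjBy at h1 ⊢
    push_cast
    have e1 : (b : A) * a * (b : A)⁻¹ * (k * σ * k⁻¹)
        = b * ((a : A) * ((b : A)⁻¹ * (k * σ * k⁻¹) * b)) * (b : A)⁻¹ := by group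
    rw [e1, h1]; group
  have hKbot : K = ⊥ := by
    rcases hs.eq_bot_or_eq_top_of_normal K hKn with h1 | h1
    · exact h1
    · exfalso
      have : (⟨g₀, hg₀⟩ : G) ∈ K := by rw [h1]; trivial
      exact hg₀σ ((hKmem _).mp this σ ⟨1, G.one_mem, by group⟩)
  -- hence `τ` is the only conjugate commuting with `σ`
  have huniq : ∀ g ∈ G, Commute (g * τ * g⁻¹) σ → g * τ * g⁻¹ = τ := by
    intro g hg hc
    have hτσ : Commute τ σ := h.fix τ h.mem (Commute.refl τ)
    have hmem : (⟨τ⁻¹ * (g * τ * g⁻¹), G.mul_mem (G.inv_mem h.mem) (hn.conj_mem _ h.mem _)⟩ : G) ∈ K := by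
      rw [hKmem]
      intro x hx
      have := h.act_eq (w := σ) (y := g * τ * g⁻¹) (y' := τ) (x := x) ⟨1, G.one_mem, by group⟩
        ⟨g, hg, rfl⟩ ⟨1, G.one_mem, by group⟩ hc hτσ hx
      unfold Commute SemiconjBy
      simp only
      have e1 : τ⁻¹ * (g * τ * g⁻¹) * x = τ⁻¹ * ((g * τ * g⁻¹) * x * (g * τ * g⁻¹)⁻¹) * (g * τ * g⁻¹) := by
        group
      rw [e1, this]; group
    rw [hKbot, Subgroup.mem_bot] at hmem
    have h2 : τ⁻¹ * (g * τ * g⁻¹) = 1 := congrArg Subtype.val hmem
    exact (inv_mul_eq_one.mp h2).symm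
  -- apply the Z*-theorem in `G`
  haveI : Fact (Nat.Prime 2) := ⟨Nat.prime_two⟩
  obtain ⟨P, hτP, hPc⟩ := h.exists_sylow
  set u : G := ⟨τ, h.mem⟩ with hu
  have huord : orderOf u = 2 := by
    rw [hu, Subgroup.orderOf_mk]; exact h.ord
  have huP : u ∈ (P : Subgroup G) := by
    obtain ⟨v, hv, hve⟩ := hτP
    have : v = u := Subtype.ext hve
    rwa [← this]
  have hiso : ∀ g : G, g * u * g⁻¹ ∈ (P : Subgroup G) → g * u * g⁻¹ = u := by
    intro g hg
    have h1 : Commute (((g : A) * τ * (g : A)⁻¹)) σ := by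
      apply hPc
      exact ⟨_, hg, by simp [hu]⟩
    have h2 := huniq g g.2 h1
    exact Subtype.ext h2
  obtain ⟨N, hNn, hNodd, hN⟩ := Cfsg.Agent.S0215.result P u huord huP hiso
  rcases hs.eq_bot_or_eq_top_of_normal N hNn with h1 | h1
  · -- `u` is central
    have hcent : u ∈ Subgroup.center G := by
      rw [Subgroup.mem_center_iff]
      intro g
      have h2 := hN g
      rw [h1, Subgroup.mem_bot] at h2
      have h3 : u * g * u⁻¹ = g := by
        have := mul_inv_eq_one.mp h2
        exact this
      have h4 : u * g = g * u := by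
        nth_rewrite 2 [← h3]
        group
      exact h4.symm
    rcases hs.eq_bot_or_eq_top_of_normal (Subgroup.center G) inferInstance with h5 | h5
    · rw [h5, Subgroup.mem_bot] at hcent
      rw [hcent, orderOf_one] at huord
      omega
    · apply hnab
      exact ⟨⟨fun a b => by
        have : a ∈ Subgroup.center G := by rw [h5]; trivial
        exact ((Subgroup.mem_center_iff.mp this) b).symm⟩⟩
  · rw [h1] at hNodd
    have hd : 2 ∣ Nat.card (⊤ : Subgroup G) := by
      rw [Nat.card_congr Subgroup.topEquiv.toEquiv, ← huord]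
      exact orderOf_dvd_natCard u
    exact (Nat.not_even_iff_odd.mpr hNodd) (even_iff_two_dvd.mpr hd)

end Cfsg.Agent.Lib.CoprimeCent

namespace Cfsg.Agent.Lib.CoprimeCent

/-- The statement for simple groups, in terms of automorphisms. -/
theorem moves_centralizer {G : Type*} [Group G] [Finite G] [IsSimpleGroup G]
    (hG : ¬ IsMulCommutative G) (τ : G) (hτ : orderOf τ = 2) (α : MulAut G) (hα : α ≠ 1)
    (hcop : (orderOf α).Coprime (Nat.card G)) :
    ∃ c ∈ Subgroup.centralizer ({τ} : Set G), α c ≠ c := by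
  classical
  by_contra hcon
  push Not at hcon
  haveI : Finite (MulAut G) := inferInstance
  -- a prime power of `α`
  have hone : orderOf α ≠ 1 := fun h1 => hα (orderOf_eq_one_iff.mp h1)
  set r := (orderOf α).minFac with hr
  have hrp : r.Prime := Nat.minFac_prime hone
  have hrd : r ∣ orderOf α := Nat.minFac_dvd _
  set σ : MulAut G := α ^ (orderOf α / r) with hσ
  have hσord : orderOf σ = r := orderOf_pow_orderOf_div (orderOf_pos α).ne' hrd
  have hσ1 : σ ≠ 1 := by
    intro h1
    rw [h1, orderOf_one] at hσord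
    exact hrp.one_lt.ne hσord
  have hσfix : ∀ c ∈ Subgroup.centralizer ({τ} : Set G), σ c = c := by
    intro c hc
    rw [hσ]
    induction (orderOf α / r) with
    | zero => simp
    | succ n ih =>
      rw [pow_succ, MulAut.mul_apply, hcon c hc, ih]
  -- inner automorphisms
  set ι : G →* MulAut G := MulAut.conj with hι
  have hιker : ι.ker = ⊥ := by
    rcases IsSimpleGroup.eq_bot_or_eq_top_of_normal ι.ker inferInstance with h1 | h1
    · exact h1
    · exfalso
      apply hG
      refine ⟨⟨fun a b => ?_⟩⟩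
      have : a ∈ ι.ker := by rw [h1]; trivial
      have h2 : ι a = 1 := this
      have h3 := DFunLike.congr_fun h2 b
      simp only [hι, MulAut.conj_apply, MulAut.one_apply] at h3
      exact mul_inv_eq_iff_eq_mul.mp h3
  have hιinj : Function.Injective ι := (MonoidHom.ker_eq_bot_iff ι).mp hιker
  set I : Subgroup (MulAut G) := ι.range with hI
  have hIcard : Nat.card I = Nat.card G :=
    Nat.card_congr (MonoidHom.ofInjective hιinj).toEquiv.symm
  have hrcop : ¬ r ∣ Nat.card G := by
    intro hd
    have := Nat.dvd_gcd hrd hd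
    rw [hcop] at this
    exact hrp.one_lt.ne' (Nat.dvd_one.mp this)
  have hconj : ∀ c : G, σ * ι c * σ⁻¹ = ι (σ c) := by
    intro c
    ext g
    simp [hι, MulAut.conj_apply, MulAut.mul_apply, map_mul, map_inv]
  have hcomm : ∀ c : G, Commute (ι c) σ ↔ σ c = c := by
    intro c
    constructor
    · intro h1
      apply hιinj
      rw [← hconj, comm_conj h1]
    · intro h1
      unfold Commute SemiconjBy
      have h2 := hconj c
      rw [h1] at h2
      have : ι c * σ = (σ * ι c * σ⁻¹) * σ := by rw [h2]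
      rw [this]; group
  have hnorm : I.Normal := by
    refine ⟨fun a ha b => ?_⟩
    obtain ⟨c, rfl⟩ := ha
    exact ⟨b c, by
      ext g
      simp [hι, MulAut.conj_apply, map_mul, map_inv]⟩
  have hS : Setup I r σ (ι τ) := by
    refine ⟨hnorm, hrp, ?_, hσ1, by rwa [hIcard], ⟨τ, rfl⟩, ?_, ?_⟩
    · rw [← hσord]; exact pow_orderOf_eq_one σ
    · rw [orderOf_injective ι hιinj τ]; exact hτ
    · rintro _ ⟨c, rfl⟩ h1
      rw [hcomm]
      apply hσfix
      rw [Subgroup.mem_centralizer_singleton_iff]
      apply hιinj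
      rw [map_mul, map_mul]
      exact h1.eq
  -- `I` is simple and non-commutative
  have hIsurj : Function.Surjective ι.rangeRestrict := ι.rangeRestrict_surjective
  have hIs : IsSimpleGroup I := by
    haveI hInt : Nontrivial ι.range :=
      (MonoidHom.rangeRestrict_injective_iff.mpr hιinj).nontrivial
    exact IsSimpleGroup.isSimpleGroup_of_surjective (H := ι.range) ι.rangeRestrict hIsurj
  have hIab : ¬ IsMulCommutative I := by
    intro hab
    apply hG
    refine ⟨⟨fun a b => ?_⟩⟩
    apply hιinj
    have := hab.is_comm.comm (ι.rangeRestrict a) (ι.rangeRestrict b)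
    have h2 := congrArg Subtype.val this
    simpa using h2
  have hall := hS.commute_of_simple hIs hIab
  apply hσ1
  ext g
  have := (hcomm g).mp (hall (ι g) ⟨g, rfl⟩)
  simpa using this

end Cfsg.Agent.Lib.CoprimeCent
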